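import Cfsg.Agent.H696.PSq.Defs
import Cfsg.Agent.Lib.ProductSet
import Mathlib.GroupTheory.OrderOfElement
import Mathlib.GroupTheory.PGroup

/-!
# S4844, PS-2b: coprime decomposition of an abelian group under an elementary abelian group
-/

set_option autoImplicit false

namespace Cfsg.Agent.H812.PSq

open Cfsg Subgroup Cfsg.Agent.H696.PSq

universe u v

theorem sup_eq {C : Type*} [Group C] [Finite C] {p k : ℕ} {R S P : Subgroup C} (hp : p.Prime) (hR : Nat.card R = p ^ (k + 1)) (hP : Nat.card P = p ^ (k + 2))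
    (hRP : R ≤ P) (hSP : S ≤ P) (hne : ¬ S ≤ R) : R ⊔ S = P := by
  have h1 : R ⊔ S ≤ P := sup_le hRP hSP
  have h2 : Nat.card R ∣ Nat.card (R ⊔ S : Subgroup C) := card_dvd_of_le le_sup_left
  have h3 : Nat.card (R ⊔ S : Subgroup C) ∣ Nat.card P := card_dvd_of_le h1
  rw [hP] at h3
  obtain ⟨j, hj, hj'⟩ := (Nat.dvd_prime_pow hp).1 h3
  rw [hR, hj', Nat.pow_dvd_pow_iff_le_right hp.one_lt] at h2
  have h4 : j ≠ k + 1 := by
    rintro rfl
    apply hne
    have : R = R ⊔ S := eq_of_le_of_card_ge le_sup_left (by rw [hR, hj'])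
    rw [this]; exact le_sup_right
  have h5 : j = k + 2 := by omega
  exact eq_of_le_of_card_ge h1 (by rw [hP, hj', h5])

section

variable {C : Type u} [Group C] {W : Type v} [CommGroup W] [MulDistribMulAction C W]

variable (W) in
/-- The fixed subgroup. -/
def fix (R : Subgroup C) : Subgroup W where
  carrier := {l | ∀ x ∈ R, x • l = l}
  mul_mem' := fun {a b} ha hb x hx => by rw [smul_mul', ha x hx, hb x hx]
  one_mem' := fun x _ => smul_one x
  inv_mem' := fun {a} ha x hx => by rw [smul_inv', ha x hx]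

theorem mem_fix {R : Subgroup C} {l : W} : l ∈ fix W R ↔ ∀ x ∈ R, x • l = l := Iff.rfl

theorem wt_eq (R : Subgroup C) : wt W R = Nat.card (fix W R) := rfl

theorem fix_anti {R S : Subgroup C} (h : R ≤ S) : fix W S ≤ fix W R := fun _ hl x hx => hl x (h hx)

theorem fix_sup {R S : Subgroup C} {l : W} (h1 : l ∈ fix W R) (h2 : l ∈ fix W S) : l ∈ fix W (R ⊔ S) := by
  intro x hx
  have : R ⊔ S ≤ MulAction.stabilizer C l := sup_le (fun y hy => h1 y hy) (fun y hy => h2 y hy)
  exact this hx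

open Classical in
/-- The norm map. -/
noncomputable def nm [Fintype C] (R : Subgroup C) (l : W) : W := ∏ x : C with x ∈ R, x • l

variable [Fintype C]

theorem nm_mul (R : Subgroup C) (l m : W) : nm R (l * m) = nm R l * nm R m := by
  classical
  unfold nm
  rw [← Finset.prod_mul_distrib]
  exact Finset.prod_congr rfl fun x _ => smul_mul' x l m

theorem nm_one (R : Subgroup C) : nm R (1 : W) = 1 := by
  classical
  unfold nm
  exact Finset.prod_eq_one fun x _ => smul_one x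

/-- The norm map as a homomorphism. -/
noncomputable def nmHom (R : Subgroup C) : W →* W where
  toFun := nm R
  map_one' := nm_one R
  map_mul' := nm_mul R

theorem nm_mem (R : Subgroup C) (l : W) : nm R l ∈ fix W R := by
  classical
  intro y hy
  unfold nm
  rw [Finset.smul_prod']
  refine Finset.prod_bij (fun x _ => y * x) ?_ ?_ ?_ ?_
  · intro x hx
    simp only [Finset.mem_filter, Finset.mem_univ, true_and] at hx ⊢
    exact mul_mem hy hx
  · intro a _ b _ hab
    exact mul_left_cancel hab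
  · intro b hb
    simp only [Finset.mem_filter, Finset.mem_univ, true_and] at hb ⊢
    exact ⟨y⁻¹ * b, mul_mem (inv_mem hy) hb, by group⟩
  · intro x _
    rw [mul_smul]

theorem nm_of_fix {R : Subgroup C} {l : W} (h : l ∈ fix W R) : nm R l = l ^ Nat.card R := by
  classical
  unfold nm
  rw [Finset.prod_congr rfl (g := fun _ => l) (fun x hx => h x (by simpa using hx)), Finset.prod_const]
  congr 1
  rw [Nat.card_eq_fintype_card, Fintype.card_subtype]

theorem nm_fix_of_comm {R S : Subgroup C} (hc : ∀ x ∈ R, ∀ y ∈ S, y * x = x * y) {l : W} (h : l ∈ fix W S) :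
    nm R l ∈ fix W S := by
  classical
  intro y hy
  unfold nm
  rw [Finset.smul_prod']
  refine Finset.prod_congr rfl fun x hx => ?_
  have hx' : x ∈ R := by simpa using hx
  rw [← mul_smul, hc x hx' y hy, mul_smul, h y hy]


variable {p : ℕ} {A E X P : Subgroup C} {k : ℕ} {ι : Type*} [Fintype ι] {R : ι → Subgroup C}

omit [MulDistribMulAction C W] [Fintype C] in
theorem pow_inj [Finite W] (hp : p.Prime) (hW : ¬ p ∣ Nat.card W) (n : ℕ) {l m : W}
    (h : l ^ p ^ n = m ^ p ^ n) : l = m := by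
  have hc : (Nat.card W).Coprime (p ^ n) :=
    (Nat.Coprime.pow_left n ((Nat.Prime.coprime_iff_not_dvd hp).2 hW)).symm
  exact (powCoprime hc).injective h

omit [MulDistribMulAction C W] [Fintype C] in
theorem pow_surj [Finite W] (hp : p.Prime) (hW : ¬ p ∣ Nat.card W) (n : ℕ) (K : Subgroup W) {l : W}
    (hl : l ∈ K) : ∃ m ∈ K, m ^ p ^ n = l := by
  have hK : ¬ p ∣ Nat.card K := fun h => hW (h.trans (card_subgroup_dvd_card K))
  have hc : (Nat.card K).Coprime (p ^ n) :=
    (Nat.Coprime.pow_left n ((Nat.Prime.coprime_iff_not_dvd hp).2 hK)).symm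
  obtain ⟨m, hm⟩ := (powCoprime hc).surjective ⟨l, hl⟩
  exact ⟨m, m.2, by simpa using congrArg Subtype.val hm⟩

open Classical in
theorem nm_split {R X E : Subgroup C} (h : R ⊓ X = E) (l : W) :
    nm R l = (∏ x : C with x ∈ R ∧ x ∉ X, x • l) * nm E l := by
  unfold nm
  have e : (Finset.univ.filter fun x : C => x ∈ R) =
      (Finset.univ.filter fun x : C => x ∈ R ∧ x ∉ X) ∪ (Finset.univ.filter fun x : C => x ∈ E) := by
    ext x
    have : x ∈ E ↔ x ∈ R ∧ x ∈ X := by rw [← h]; exact Iff.rfl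
    simp only [Finset.mem_filter, Finset.mem_univ, true_and, Finset.mem_union, this]
    tauto
  rw [e, Finset.prod_union]
  rw [Finset.disjoint_left]
  intro x hx hx'
  have : x ∈ E ↔ x ∈ R ∧ x ∈ X := by rw [← h]; exact Iff.rfl
  simp only [Finset.mem_filter, Finset.mem_univ, true_and, this] at hx hx'
  exact hx.2 hx'.2

theorem card_split {R X E : Subgroup C} (h : R ⊓ X = E) [DecidablePred (· ∈ R)] [DecidablePred (· ∈ X)] :
    Nat.card R = (Finset.univ.filter fun x : C => x ∈ R ∧ x ∉ X).card + Nat.card E := by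
  classical
  have e : (Finset.univ.filter fun x : C => x ∈ R) =
      (Finset.univ.filter fun x : C => x ∈ R ∧ x ∉ X) ∪ (Finset.univ.filter fun x : C => x ∈ E) := by
    ext x
    have : x ∈ E ↔ x ∈ R ∧ x ∈ X := by rw [← h]; exact Iff.rfl
    simp only [Finset.mem_filter, Finset.mem_univ, true_and, Finset.mem_union, this]
    tauto
  have hR : Nat.card R = (Finset.univ.filter fun x : C => x ∈ R).card := by
    rw [Nat.card_eq_fintype_card, Fintype.card_subtype]
  have hE : Nat.card E = (Finset.univ.filter fun x : C => x ∈ E).card := by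
    rw [Nat.card_eq_fintype_card, Fintype.card_subtype]
  rw [hR, hE, e, Finset.card_union_of_disjoint]
  rw [Finset.disjoint_left]
  intro x hx hx'
  have : x ∈ E ↔ x ∈ R ∧ x ∈ X := by rw [← h]; exact Iff.rfl
  simp only [Finset.mem_filter, Finset.mem_univ, true_and, this] at hx hx'
  exact hx.2 hx'.2

theorem biUnion_eq [DecidableEq C] (hRP : ∀ i, R i ≤ P) (hcov : ∀ x ∈ P, x ∉ X → ∃ i, x ∈ R i)
    [∀ i, DecidablePred (· ∈ R i)] [DecidablePred (· ∈ X)] [DecidablePred (· ∈ P)] :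
    (Finset.univ.filter fun x : C => x ∈ P ∧ x ∉ X) =
      Finset.univ.biUnion fun i => (Finset.univ.filter fun x : C => x ∈ R i ∧ x ∉ X) := by
  ext x
  simp only [Finset.mem_filter, Finset.mem_univ, true_and, Finset.mem_biUnion]
  constructor
  · rintro ⟨h1, h2⟩
    obtain ⟨i, hi⟩ := hcov x h1 h2
    exact ⟨i, hi, h2⟩
  · rintro ⟨i, h1, h2⟩
    exact ⟨hRP i h1, h2⟩

theorem pairwise_disj (huni : ∀ x ∉ X, ∀ i j, x ∈ R i → x ∈ R j → i = j)
    [∀ i, DecidablePred (· ∈ R i)] [DecidablePred (· ∈ X)] :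
    ((Finset.univ : Finset ι) : Set ι).PairwiseDisjoint
      fun i => (Finset.univ.filter fun x : C => x ∈ R i ∧ x ∉ X) := by
  intro i _ j _ hij
  rw [Function.onFun, Finset.disjoint_left]
  intro x hx hx'
  simp only [Finset.mem_filter, Finset.mem_univ, true_and] at hx hx'
  exact hij (huni x hx.2 i j hx.1 hx'.1)

theorem card_index (hp : p.Prime) (hXP : X ≤ P) (hE : Nat.card E = p ^ k) (hX : Nat.card X = p ^ (k + 1))
    (hP : Nat.card P = p ^ (k + 2)) (hRc : ∀ i, Nat.card (R i) = p ^ (k + 1)) (hRP : ∀ i, R i ≤ P)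
    (hRX : ∀ i, R i ⊓ X = E) (hcov : ∀ x ∈ P, x ∉ X → ∃ i, x ∈ R i)
    (huni : ∀ x ∉ X, ∀ i j, x ∈ R i → x ∈ R j → i = j) : Fintype.card ι = p := by
  classical
  have h1 := card_split (R := P) (X := X) (E := X) (inf_eq_right.2 hXP)
  rw [biUnion_eq hRP hcov, Finset.card_biUnion
    (fun i hi j hj hij => pairwise_disj huni (Finset.mem_coe.2 hi) (Finset.mem_coe.2 hj) hij)] at h1
  have h2 : ∀ i, (Finset.univ.filter fun x : C => x ∈ R i ∧ x ∉ X).card = p ^ (k + 1) - p ^ k := by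
    intro i
    have := card_split (hRX i)
    rw [hRc, hE] at this
    omega
  rw [Finset.sum_congr rfl (fun i _ => h2 i), Finset.sum_const, Finset.card_univ, smul_eq_mul, hP, hX] at h1
  have h3 : p ^ (k + 2) = p ^ k * p * p := by ring
  have h4 : p ^ (k + 1) = p ^ k * p := by ring
  have h5 : p ^ (k + 1) - p ^ k = p ^ k * (p - 1) := by
    rw [h4, Nat.mul_sub, mul_one]
  rw [h5, h3, h4] at h1
  obtain ⟨q, rfl⟩ : ∃ q, p = q + 1 := ⟨p - 1, by have := hp.pos; omega⟩
  have hq : 0 < q := by have := hp.two_le; omega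
  have hk : 0 < (q + 1) ^ k := by positivity
  simp only [Nat.add_sub_cancel] at h1
  have h6 : ((q + 1) ^ k * q) * (q + 1) = ((q + 1) ^ k * q) * Fintype.card ι := by
    nlinarith
  exact (Nat.eq_of_mul_eq_mul_left (by positivity) h6).symm

theorem prod_nm (hXP : X ≤ P) (hEP : ∀ l : W, nm P l = 1) (hEX : ∀ l : W, nm X l = 1) (hRP : ∀ i, R i ≤ P)
    (hRX : ∀ i, R i ⊓ X = E) (hcov : ∀ x ∈ P, x ∉ X → ∃ i, x ∈ R i)
    (huni : ∀ x ∉ X, ∀ i j, x ∈ R i → x ∈ R j → i = j) (l : W) :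
    ∏ i, nm (R i) l = nm E l ^ Fintype.card ι := by
  classical
  have h1 := nm_split (R := P) (X := X) (E := X) (inf_eq_right.2 hXP) l
  rw [hEP, hEX, mul_one, biUnion_eq hRP hcov, Finset.prod_biUnion (pairwise_disj huni)] at h1
  rw [Finset.prod_congr rfl (fun i _ => nm_split (hRX i) l), Finset.prod_mul_distrib, ← h1, one_mul,
    Finset.prod_const, Finset.card_univ]

/-- **Coprime decomposition.** -/
theorem decomp [Finite W] (hp : p.Prime) (hW : ¬ p ∣ Nat.card W) (hA : ∀ l : W, l ∈ fix W A → l = 1) (hAX : A ≤ X)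
    (hXP : X ≤ P) (hPc : ∀ x ∈ P, ∀ y ∈ P, x * y = y * x) (hE : Nat.card E = p ^ k)
    (hX : Nat.card X = p ^ (k + 1)) (hP : Nat.card P = p ^ (k + 2)) (hRc : ∀ i, Nat.card (R i) = p ^ (k + 1))
    (hRP : ∀ i, R i ≤ P) (hRX : ∀ i, R i ⊓ X = E) (hcov : ∀ x ∈ P, x ∉ X → ∃ i, x ∈ R i)
    (huni : ∀ x ∉ X, ∀ i j, x ∈ R i → x ∈ R j → i = j) : ∏ i, wt W (R i) = wt W E := by
  classical
  have hι : Fintype.card ι = p := card_index hp hXP hE hX hP hRc hRP hRX hcov huni
  have hPl : ∀ l : W, nm P l = 1 := fun l => hA _ (fix_anti (hAX.trans hXP) (nm_mem P l))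
  have hXl : ∀ l : W, nm X l = 1 := fun l => hA _ (fix_anti hAX (nm_mem X l))
  have hprod := prod_nm hXP hPl hXl hRP hRX hcov huni
  have hER : ∀ i, E ≤ R i := fun i => by rw [← hRX i]; exact inf_le_left
  have hne : ∀ i j, i ≠ j → ¬ R i ≤ R j := by
    intro i j hij h
    have hn : ¬ R i ≤ X := by
      intro hRiX
      have := hRX i
      rw [inf_eq_left.2 hRiX] at this
      have h1 := hRc i
      rw [this, hE] at h1
      exact absurd h1 (Nat.pow_lt_pow_right hp.one_lt (Nat.lt_succ_self k)).ne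
    obtain ⟨x, hx, hx'⟩ := SetLike.not_le_iff_exists.1 hn
    exact hij (huni x hx' i j hx (h hx))
  have hcross : ∀ i j, i ≠ j → ∀ l ∈ fix W (R j), nm (R i) l = 1 := by
    intro i j hij l hl
    have h1 : nm (R i) l ∈ fix W (R j) :=
      nm_fix_of_comm (fun x hx y hy => hPc y (hRP j hy) x (hRP i hx)) hl
    have h2 := fix_sup (nm_mem (R i) l) h1
    rw [sup_eq hp (hRc i) hP (hRP i) (hRP j) (hne j i hij.symm)] at h2
    exact hA _ (fix_anti (hAX.trans hXP) h2)
  have key : ∀ l ∈ fix W E, ∏ i, nm (R i) l = l ^ p ^ (k + 1) := by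
    intro l hl
    rw [hprod, nm_of_fix hl, hι, ← pow_mul, hE, ← pow_succ]
  simp only [wt_eq]
  rw [← Nat.card_pi]
  symm
  refine Nat.card_congr (Equiv.ofBijective
    (fun l : fix W E => fun i => (⟨nm (R i) (l : W), nm_mem _ _⟩ : fix W (R i))) ⟨?_, ?_⟩)
  · intro l m hlm
    have h1 : ∀ i, nm (R i) (l : W) = nm (R i) (m : W) := fun i => congrArg Subtype.val (congrFun hlm i)
    have h2 : (l : W) ^ p ^ (k + 1) = (m : W) ^ p ^ (k + 1) := by
      rw [← key l l.2, ← key m m.2]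
      exact Finset.prod_congr rfl fun i _ => h1 i
    exact Subtype.ext (pow_inj hp hW _ h2)
  · intro m
    choose m' hm' hm'' using fun i => pow_surj hp hW (k + 1) (fix W (R i)) (m i).2
    have hl : ∏ i, m' i ∈ fix W E := Subgroup.prod_mem _ fun i _ => fix_anti (hER i) (hm' i)
    refine ⟨⟨∏ i, m' i, hl⟩, ?_⟩
    funext j
    apply Subtype.ext
    change nm (R j) (∏ i, m' i) = _
    have : nm (R j) (∏ i, m' i) = ∏ i, nm (R j) (m' i) := map_prod (nmHom (R j)) _ _
    rw [this, Finset.prod_eq_single j]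
    · rw [nm_of_fix (hm' j), hRc, hm'']
    · intro i _ hij
      exact hcross j i hij.symm _ (hm' i)
    · intro h; exact absurd (Finset.mem_univ j) h

end

/-! ### Geometry of an elementary abelian group -/

section geo

variable {C : Type u} [Group C] {p : ℕ} {A P : Subgroup C}

theorem card_sup_inf (hPc : ∀ x ∈ P, ∀ y ∈ P, x * y = y * x) {X Y : Subgroup C} (hX : X ≤ P) (hY : Y ≤ P) :
    Nat.card ↥(X ⊔ Y) * Nat.card ↥(X ⊓ Y) = Nat.card X * Nat.card Y := by
  have hn : Y ≤ normalizer (X : Set C) := by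
    intro y hy
    rw [mem_normalizer_iff]
    intro x
    constructor
    · intro hx
      have : y * x * y⁻¹ = x := by rw [hPc y (hY hy) x (hX hx)]; group
      rwa [this]
    · intro hx
      have h1 : y⁻¹ * (y * x * y⁻¹) * y = y * x * y⁻¹ := by
        rw [hPc y⁻¹ (inv_mem (hY hy)) _ (hX hx)]; group
      have h2 : x = y * x * y⁻¹ := by
        calc x = y⁻¹ * (y * x * y⁻¹) * y := by group
          _ = _ := h1
      rw [h2]; exact hx
  rw [← Cfsg.Agent.Lib.ProductSet.card_mul_card_inf X Y,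
    ← Subgroup.coe_mul_of_right_le_normalizer_left X Y hn]
  rfl

theorem card_zpow (hp : p.Prime) (hPe : ∀ x ∈ P, x ^ p = 1) {x : C} (hx : x ∈ P) (h1 : x ≠ 1) :
    Nat.card (zpowers x) = p := by
  have : Fact p.Prime := ⟨hp⟩
  rw [Nat.card_zpowers]
  exact orderOf_eq_prime (hPe x hx) h1

theorem zpow_inf [Finite C] (hp : p.Prime) (hPe : ∀ x ∈ P, x ^ p = 1) {x : C} (hx : x ∈ P) {E : Subgroup C} (hxE : x ∉ E) :
    E ⊓ zpowers x = ⊥ := by
  have h1 : x ≠ 1 := fun h => hxE (h ▸ one_mem E)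
  have h2 : Nat.card (E ⊓ zpowers x : Subgroup C) ∣ p := by
    rw [← card_zpow hp hPe hx h1]; exact card_dvd_of_le inf_le_right
  rcases (Nat.dvd_prime hp).1 h2 with h | h
  · exact Subgroup.card_eq_one.1 h
  · exfalso
    have h3 : E ⊓ zpowers x = zpowers x :=
      eq_of_le_of_card_ge inf_le_right (by rw [h, card_zpow hp hPe hx h1])
    exact hxE (by
      have : x ∈ E ⊓ zpowers x := by rw [h3]; exact mem_zpowers x
      exact this.1)

theorem card_sup_zpow [Finite C] (hp : p.Prime) (hPc : ∀ x ∈ P, ∀ y ∈ P, x * y = y * x)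
    (hPe : ∀ x ∈ P, x ^ p = 1) {x : C} (hx : x ∈ P) {E : Subgroup C} (hE : E ≤ P) (hxE : x ∉ E) :
    Nat.card (E ⊔ zpowers x : Subgroup C) = Nat.card E * p := by
  have h1 : x ≠ 1 := fun h => hxE (h ▸ one_mem E)
  have := card_sup_inf hPc hE (zpowers_le.2 hx)
  rwa [zpow_inf hp hPe hx hxE, card_bot, mul_one, card_zpow hp hPe hx h1] at this

/-- a subgroup of order `p ^ k` inside one of order `p ^ (k + 1)` which is not everything -/
theorem eq_of_le_of_lt [Finite C] (hp : p.Prime) {k : ℕ} {E K R : Subgroup C} (hE : Nat.card E = p ^ k)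
    (hR : Nat.card R = p ^ (k + 1)) (hEK : E ≤ K) (hKR : K ≤ R) (hne : K ≠ R) : K = E := by
  have h1 : Nat.card E ∣ Nat.card K := card_dvd_of_le hEK
  have h2 : Nat.card K ∣ Nat.card R := card_dvd_of_le hKR
  rw [hR] at h2
  obtain ⟨j, hj, hj'⟩ := (Nat.dvd_prime_pow hp).1 h2
  rw [hE, hj', Nat.pow_dvd_pow_iff_le_right hp.one_lt] at h1
  have h3 : j ≠ k + 1 := by
    rintro rfl
    exact hne (eq_of_le_of_card_ge hKR (by rw [hj', hR]))
  have h4 : j = k := by omega
  exact (eq_of_le_of_card_ge hEK (by rw [hj', hE, h4])).symm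

variable [Finite C] (hp : p.Prime) (hPc : ∀ x ∈ P, ∀ y ∈ P, x * y = y * x) (hPe : ∀ x ∈ P, x ^ p = 1)

include hp hPc hPe

/-- through every point `x` outside `X` there is exactly one point of the line `(X, E)` -/
theorem exists_pt {E X : Subgroup C} (hE : Nat.card E = p) (hXP : X ≤ P) (hAX : A ≤ X)
    (hEX : E ≤ X) (hEA : E ⊓ A = ⊥) {x : C} (hx : x ∈ P) (hxX : x ∉ X) :
    ∃ R : Pt p P A, (R : Subgroup C) = E ⊔ zpowers x ∧ (R : Subgroup C) ⊓ X = E := by
  have hxE : x ∉ E := fun h => hxX (hEX h)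
  have h1 : Nat.card (E ⊔ zpowers x : Subgroup C) = p ^ 2 := by
    rw [card_sup_zpow hp hPc hPe hx (hEX.trans hXP) hxE, hE, sq]
  have h2 : (E ⊔ zpowers x) ⊓ X = E := by
    refine eq_of_le_of_lt (k := 1) hp (by rw [hE, pow_one]) h1 (le_inf le_sup_left hEX) inf_le_left ?_
    intro h
    have h3 : E ⊔ zpowers x ≤ X := by rw [← h]; exact inf_le_right
    exact hxX (h3 (mem_sup_right (mem_zpowers x)))
  refine ⟨⟨E ⊔ zpowers x, sup_le (hEX.trans hXP) (zpowers_le.2 hx), h1, ?_⟩, rfl, h2⟩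
  rw [eq_bot_iff, ← hEA]
  refine le_inf ?_ inf_le_right
  calc (E ⊔ zpowers x) ⊓ A ≤ (E ⊔ zpowers x) ⊓ X := inf_le_inf_left _ hAX
    _ = E := h2

theorem pt_unique {E X : Subgroup C} (hE : Nat.card E = p) (hXP : X ≤ P)
    (hEX : E ≤ X) {x : C} (hxX : x ∉ X) {R : Subgroup C} (hR : Nat.card R = p ^ 2) (hRP : R ≤ P)
    (hER : E ≤ R) (hxR : x ∈ R) : R = E ⊔ zpowers x := by
  have hxE : x ∉ E := fun h => hxX (hEX h)
  have h1 : Nat.card (E ⊔ zpowers x : Subgroup C) = p ^ 2 := by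
    rw [card_sup_zpow hp hPc hPe (hRP hxR) (hEX.trans hXP) hxE, hE, sq]
  exact (eq_of_le_of_card_ge (sup_le hER (zpowers_le.2 hxR)) (by rw [h1, hR])).symm

variable (hP3 : Nat.card P = p ^ 3) (hAP : A ≤ P) (hAc : Nat.card A = p)

include hP3 hAc

omit hPe in
theorem card_pt_inf_dir (R : Pt p P A) (X : Dir p P A) :
    Nat.card ((R : Subgroup C) ⊓ (X : Subgroup C) : Subgroup C) = p := by
  have hne : ¬ (X : Subgroup C) ≤ R := by
    intro h
    have h1 : A ≤ (R : Subgroup C) ⊓ A := le_inf (X.2.2.2.trans h) le_rfl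
    rw [R.2.2.2, le_bot_iff] at h1
    rw [h1, card_bot] at hAc
    exact hp.one_lt.ne hAc
  have h1 := card_sup_inf hPc R.2.1 X.2.1
  rw [sup_eq (k := 1) hp R.2.2.1 hP3 R.2.1 X.2.1 hne, hP3, R.2.2.1, X.2.2.1] at h1
  have h2 : p ^ 3 * Nat.card ((R : Subgroup C) ⊓ (X : Subgroup C) : Subgroup C) = p ^ 3 * p := by
    rw [h1]; ring
  exact Nat.eq_of_mul_eq_mul_left (pow_pos hp.pos 3) h2

include hAP

theorem exists_dir : Nonempty (Dir p P A) := by
  obtain ⟨x, hx, hxA⟩ : ∃ x ∈ P, x ∉ A := by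
    by_contra h
    push Not at h
    have h1 : P = A := le_antisymm h hAP
    rw [h1, hAc] at hP3
    exact absurd (Nat.pow_right_injective hp.two_le ((pow_one p).trans hP3)) (by norm_num)
  exact ⟨⟨A ⊔ zpowers x, sup_le hAP (zpowers_le.2 hx), by
    rw [card_sup_zpow hp hPc hPe hx hAP hxA, hAc, sq], le_sup_left⟩⟩

variable {W : Type v} [CommGroup W] [MulDistribMulAction C W] [Finite W] (hW : ¬ p ∣ Nat.card W)
  (hA : ∀ l : W, (∀ x ∈ A, x • l = l) → l = 1)

include hW hA

omit hAP hAc in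
/-- the line equation, product form -/
theorem line_prod {E X : Subgroup C} (hE : Nat.card E = p) (hX : Nat.card X = p ^ 2) (hXP : X ≤ P) (hAX : A ≤ X)
    (hEX : E ≤ X) (hEA : E ⊓ A = ⊥) [Fintype {R : Pt p P A // (R : Subgroup C) ⊓ X = E}] :
    ∏ R : {R : Pt p P A // (R : Subgroup C) ⊓ X = E}, wt W (R.1 : Subgroup C) = wt W E := by
  classical
  have : Fintype C := Fintype.ofFinite C
  refine decomp (k := 1) hp hW hA hAX hXP hPc (by rw [hE, pow_one]) hX hP3 (fun i => i.1.2.2.1)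
    (fun i => i.1.2.1) (fun i => i.2) ?_ ?_
  · intro x hx hxX
    obtain ⟨R, hR, hR'⟩ := exists_pt hp hPc hPe hE hXP hAX hEX hEA hx hxX
    exact ⟨⟨R, hR'⟩, by rw [hR]; exact mem_sup_right (mem_zpowers x)⟩
  · intro x hxX i j hi hj
    have hEi : E ≤ (i.1 : Subgroup C) := le_of_eq_of_le i.2.symm inf_le_left
    have hEj : E ≤ (j.1 : Subgroup C) := le_of_eq_of_le j.2.symm inf_le_left
    apply Subtype.ext
    apply Subtype.ext
    rw [pt_unique hp hPc hPe hE hXP hEX hxX i.1.2.2.1 i.1.2.1 hEi hi,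
      pt_unique hp hPc hPe hE hXP hEX hxX j.1.2.2.1 j.1.2.1 hEj hj]

omit hPc hPe hP3 hAP in
/-- the equation of an elementary abelian group of order `p ^ 2` -/
theorem plane_prod {X : Subgroup C} (hXc : ∀ x ∈ X, ∀ y ∈ X, x * y = y * x) (hXe : ∀ x ∈ X, x ^ p = 1)
    (hX : Nat.card X = p ^ 2) (hAX : A ≤ X)
    [Fintype {E : Subgroup C // E ≤ X ∧ Nat.card E = p ∧ E ⊓ A = ⊥}] :
    ∏ E : {E : Subgroup C // E ≤ X ∧ Nat.card E = p ∧ E ⊓ A = ⊥}, wt W (E : Subgroup C) = Nat.card W := by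
  classical
  have : Fintype C := Fintype.ofFinite C
  have h1 : wt W (⊥ : Subgroup C) = Nat.card W := by
    rw [wt_eq]
    have : fix W (⊥ : Subgroup C) = ⊤ := by
      rw [eq_top_iff]
      intro l _ x hx
      rw [mem_bot.1 hx, one_smul]
    rw [this, card_top]
  rw [← h1]
  have hone : ∀ x : C, x ∉ A → x ≠ 1 := fun x hx h => hx (h ▸ one_mem A)
  refine decomp (k := 0) (E := ⊥) (X := A) (P := X) hp hW hA le_rfl hAX hXc (by rw [card_bot, pow_zero])
    (by rw [hAc, zero_add, pow_one]) hX (fun i => by rw [i.2.2.1, zero_add, pow_one])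
    (fun i => i.2.1) (fun i => i.2.2.2) ?_ ?_
  · intro x hx hxA
    refine ⟨⟨zpowers x, zpowers_le.2 hx, card_zpow hp hXe hx (hone x hxA), ?_⟩, mem_zpowers x⟩
    rw [inf_comm]
    exact zpow_inf hp hXe hx hxA
  · intro x hxA i j hi hj
    have hx1 := hone x hxA
    have key : ∀ i : {E : Subgroup C // E ≤ X ∧ Nat.card E = p ∧ E ⊓ A = ⊥}, x ∈ (i : Subgroup C) →
        (i : Subgroup C) = zpowers x := by
      intro i hi
      exact (eq_of_le_of_card_ge (zpowers_le.2 hi)
        (by rw [i.2.2.1, card_zpow hp hXe (i.2.1 hi) hx1])).symm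
    apply Subtype.ext
    rw [key i hi, key j hj]

/-- the total equation, product form -/
theorem total_prod [Fintype (Pt p P A)] : ∏ R : Pt p P A, wt W (R : Subgroup C) = Nat.card W := by
  classical
  have : Fintype C := Fintype.ofFinite C
  obtain ⟨X⟩ := exists_dir hp hPc hPe hP3 hAP hAc
  have hXc : ∀ x ∈ (X : Subgroup C), ∀ y ∈ (X : Subgroup C), x * y = y * x :=
    fun x hx y hy => hPc x (X.2.1 hx) y (X.2.1 hy)
  have : Fintype {E : Subgroup C // E ≤ (X : Subgroup C) ∧ Nat.card E = p ∧ E ⊓ A = ⊥} := Fintype.ofFinite _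
  rw [← plane_prod hp hAc hW hA hXc (fun x hx => hPe x (X.2.1 hx)) X.2.2.1 X.2.2.2]
  let g : Pt p P A → {E : Subgroup C // E ≤ (X : Subgroup C) ∧ Nat.card E = p ∧ E ⊓ A = ⊥} :=
    fun R => ⟨(R : Subgroup C) ⊓ X, inf_le_right, card_pt_inf_dir hp hPc hP3 hAc R X,
      le_bot_iff.1 (le_of_le_of_eq (inf_le_inf_right _ inf_le_left) R.2.2.2)⟩
  rw [← Fintype.prod_fiberwise g]
  refine Finset.prod_congr rfl fun E _ => ?_
  rw [← line_prod hp hPc hPe hP3 hW hA E.2.2.1 X.2.2.1 X.2.1 X.2.2.2 E.2.1 E.2.2.2]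
  refine Fintype.prod_equiv (Equiv.subtypeEquivRight fun R => ?_) _ _ fun R => rfl
  rw [Subtype.ext_iff]

theorem total_finprod : ∏ᶠ R : Pt p P A, wt W (R : Subgroup C) = Nat.card W := by
  classical
  have : Fintype C := Fintype.ofFinite C
  have : Fintype (Pt p P A) := Fintype.ofFinite _
  rw [finprod_eq_prod_of_fintype]
  exact total_prod hp hPc hPe hP3 hAP hAc hW hA

omit hAP in
open Classical in
theorem line_finprod (X : Dir p P A) (R₀ : Pt p P A) :
    ∏ᶠ R : Pt p P A, (if (R : Subgroup C) ⊓ X = (R₀ : Subgroup C) ⊓ X then wt W (R : Subgroup C) else 1) =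
      wt W ((R₀ : Subgroup C) ⊓ X) := by
  have : Fintype C := Fintype.ofFinite C
  have : Fintype (Pt p P A) := Fintype.ofFinite _
  rw [finprod_eq_prod_of_fintype, ← Finset.prod_filter]
  have h1 := line_prod hp hPc hPe hP3 hW hA (E := (R₀ : Subgroup C) ⊓ X)
    (card_pt_inf_dir hp hPc hP3 hAc R₀ X) X.2.2.1 X.2.1 X.2.2.2 inf_le_right
    (le_bot_iff.1 (le_of_le_of_eq (inf_le_inf_right _ inf_le_left) R₀.2.2.2))
  rw [← h1]
  exact Finset.prod_subtype _ (fun R => by simp) _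

end geo

section or

variable {C : Type u} [Group C] {p : ℕ} {A : Subgroup C} {W : Type v} [CommGroup W]
  [MulDistribMulAction C W] [Finite W]

/-- `A` acts semiregularly on the nontrivial fixed points of `R`. -/
theorem wt_or (hp : p.Prime) (hAz : A ≤ center C) (hAc : Nat.card A = p)
    (hA : ∀ l : W, (∀ x ∈ A, x • l = l) → l = 1) (R : Subgroup C) : wt W R = 1 ∨ p + 1 ≤ wt W R := by
  have : Fact p.Prime := ⟨hp⟩
  let _ : MulAction A (fix W R) :=
    { smul := fun a l => ⟨(a : C) • (l : W), fun x hx => by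
        rw [← mul_smul, mem_center_iff.1 (hAz a.2) x, mul_smul, l.2 x hx]⟩
      one_smul := fun l => Subtype.ext (one_smul C (l : W))
      mul_smul := fun a b l => Subtype.ext (mul_smul (a : C) (b : C) (l : W)) }
  have h1 := (IsPGroup.of_card (n := 1) (by rw [hAc, pow_one]) : IsPGroup p A).card_modEq_card_fixedPoints
    (fix W R)
  have h2 : Nat.card (MulAction.fixedPoints A (fix W R)) = 1 := by
    rw [Nat.card_eq_one_iff_unique]
    refine ⟨⟨fun a b => ?_⟩, ⟨⟨1, fun a => Subtype.ext (smul_one (a : C))⟩⟩⟩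
    have key : ∀ c : MulAction.fixedPoints A (fix W R), ((c : fix W R) : W) = 1 := by
      intro c
      exact hA _ fun x hx => congrArg Subtype.val (c.2 ⟨x, hx⟩)
    exact Subtype.ext (Subtype.ext ((key a).trans (key b).symm))
  rw [h2] at h1
  have h3 : 0 < Nat.card (fix W R) := Nat.card_pos
  rw [wt_eq]
  rcases Nat.lt_or_ge 1 (Nat.card (fix W R)) with h | h
  · right
    have h4 : p ∣ Nat.card (fix W R) - 1 := (Nat.modEq_iff_dvd' h.le).1 h1.symm
    have h5 := Nat.le_of_dvd (by omega) h4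
    omega
  · left; omega

end or

end Cfsg.Agent.H812.PSq
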